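import Cfsg.Agent.Lib.Two.Cover3
import Cfsg.Agent.Lib.Core.PBal2
import Cfsg.Prelude.Def_Classical

/-!
The centralizer of an involution in `SU₃(4)`.
-/

set_option autoImplicit false

namespace Cfsg.Agent.Lib.Two.U34

open Subgroup Cfsg.Agent.Lib.Core Matrix
open scoped commutatorElement

theorem minNN_of_equiv {p : ℕ} [Fact p.Prime] {G H : Type*} [Group G] [Group H] [Finite G]
    (h : MinNN p G) (e : G ≃* H) : MinNN p H :=
  ⟨fun k => have := Finite.of_equiv _ e.toEquiv
    h.1 (Transfer.hasNormalPComplement_of_injective k e.toMonoidHom e.injective), fun L hL =>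
    Transfer.hasNormalPComplement_of_injective (h.2 (L.map (e.symm : H →* G)) fun k => hL
      (Subgroup.map_injective (f := (e.symm : H →* G)) e.symm.injective
        (k.trans (map_top_of_surjective _ e.symm.surjective).symm)))
      (e.symm.subgroupMap L).toMonoidHom (MulEquiv.injective _)⟩

theorem minNN_of_card {G : Type*} [Group G] [Finite G] (hG : Nat.card G = 320)
    (hD : Nat.card (commutator G) = 64) (hZ : Nat.card (center (commutator G)) = 4) :
    MinNN 2 G := by
  have := Fact.mk Nat.prime_five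
  set P := commutator G with hP
  have hP2 : IsPGroup 2 P := IsPGroup.of_card (n := 6) hD
  let Z := (center P).map P.subtype
  have hZP : Z ≤ P := map_subtype_le _
  have hZc : Z ≤ centralizer (P : Set G) := by
    rintro _ ⟨z, hz, rfl⟩ x hx
    exact congrArg Subtype.val (mem_center_iff.mp hz ⟨x, hx⟩)
  have hZn : Z.Normal := inferInstance
  replace hZ : Nat.card Z = 4 := (card_map_subtype _).trans hZ
  have top : ∀ y : G, orderOf y = 5 → P ⊔ zpowers y = ⊤ := fun y hy => by
    refine eq_top_of_le_card _ (Nat.le_of_dvd Nat.card_pos ?_)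
    have h1 := card_dvd_of_le (le_sup_left : P ≤ P ⊔ zpowers y)
    have h2 := card_dvd_of_le (le_sup_right : zpowers y ≤ P ⊔ zpowers y)
    rw [hD] at h1
    rw [Nat.card_zpowers, hy] at h2
    rw [hG]
    exact Nat.Coprime.mul_dvd_of_dvd_of_dvd (by norm_num : Nat.Coprime 64 5) h1 h2
  have key : ∀ y : G, orderOf y = 5 → ∀ D ≤ P, D ≠ P → y ∈ normalizer (D : Set G) →
      D ≤ centralizer (zpowers y : Set G) := fun y hy D hD1 hD2 hn => by
    have hy5 : IsPGroup 5 (zpowers y) := IsPGroup.of_card (n := 1) (by rw [Nat.card_zpowers, hy]; rfl)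
    have h1 : Z ≤ centralizer (zpowers y : Set G) := by
      have k := Transfer.card_modEq_card_inf_centralizer hy5 (Q := Z) le_normalizer_of_normal
      have k2 := card_le_of_le (inf_le_left : Z ⊓ centralizer (zpowers y : Set G) ≤ Z)
      refine inf_eq_left.mp (eq_of_le_of_card_ge inf_le_left ?_)
      rw [hZ] at k k2 ⊢
      unfold Nat.ModEq at k
      omega
    have h2 : D ⊔ Z ≠ P := fun e => by
      have ht := top y hy
      rw [← e] at ht
      have hZ' : ⁅Z, (⊤ : Subgroup G)⁆ = ⊥ := by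
        rw [commutator_eq_bot_iff_le_centralizer, ← top y hy, centralizer_sup]
        exact le_inf hZc h1
      have : D.Normal := normalizer_eq_top_iff.mp (eq_top_iff.mpr (ht.ge.trans (sup_le (sup_le
        le_normalizer (hZc.trans ((centralizer_le_centralizer hD1).trans
          (centralizer_le_normalizer _)))) (zpowers_le.mpr hn))))
      have k : ∀ A : Subgroup G, ⁅zpowers y, A⁆ ≤ D → ⁅⊤, A⁆ ≤ D := fun A hA => by
        rw [← ht]
        exact commutator_sup_left_le (commutator_sup_left_le (commutator_le_left _ _)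
          ((commutator_mono le_rfl le_top).trans (hZ'.le.trans bot_le)) le_normalizer_of_normal) hA
          le_normalizer_of_normal
      refine hD2 (hD1.antisymm (k ⊤ ?_))
      rw [Subgroup.commutator_comm]
      exact k _ ((commutator_self_eq_bot_iff.mpr inferInstance).le.trans bot_le)
    have h3 := Transfer.card_modEq_card_inf_centralizer hy5 (Q := D ⊔ Z)
      (zpowers_le.mpr (le_normalizer_sup (zpowers_le.mpr hn) le_normalizer_of_normal
        (mem_zpowers y)))
    have hE : D ⊔ Z ≤ P := sup_le hD1 hZP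
    obtain ⟨i, hi⟩ := IsPGroup.iff_card.mp (hP2.to_le hE)
    obtain ⟨j, hj⟩ := IsPGroup.iff_card.mp (hP2.to_le
      (inf_le_left.trans hE : (D ⊔ Z) ⊓ centralizer (zpowers y : Set G) ≤ P))
    have b1 := card_le_of_le (le_inf le_sup_right h1 :
      Z ≤ (D ⊔ Z) ⊓ centralizer (zpowers y : Set G))
    have b2 := card_le_of_le (inf_le_left : (D ⊔ Z) ⊓ centralizer (zpowers y : Set G) ≤ D ⊔ Z)
    have b3 : Nat.card (D ⊔ Z : Subgroup G) < 2 ^ 6 :=
      not_le.mp fun e => h2 (eq_of_le_of_card_ge hE (hD.trans_le e))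
    refine (le_sup_left (b := Z)).trans (inf_eq_left.mp (eq_of_le_of_card_ge inf_le_left ?_))
    rw [hi, hj] at h3 b2 ⊢
    rw [hZ, hj, show 4 = 2 ^ 2 from rfl] at b1
    rw [hi] at b3
    have c1 := (Nat.pow_le_pow_iff_right one_lt_two).mp b1
    have c2 := (Nat.pow_le_pow_iff_right one_lt_two).mp b2
    have c3 := (Nat.pow_lt_pow_iff_right one_lt_two).mp b3
    interval_cases i <;> interval_cases j <;> first | rfl | exact absurd h3 (by decide)
  constructor
  · intro h
    obtain ⟨y, hy⟩ := exists_prime_orderOf_dvd_card' (G := G) 5 (by rw [hG]; norm_num)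
    have k := Transfer.mem_centralizer_of_hasNormalPComplement_of_le
      (Transfer.hasNormalPComplement_top_iff.mpr h) hP2 le_top (mem_top y)
      (le_normalizer_of_normal (mem_top y)) (by rw [hy]; norm_num)
    have k2 := commutator_sup_sup_le (le_centralizer_iff.mp (zpowers_le.mpr k))
    rw [top y hy, (commutator_self_eq_bot_iff (H := zpowers y)).mpr inferInstance, sup_bot_eq] at k2
    have := hP2.isNilpotent
    have : Nontrivial P := Finite.one_lt_card_iff_nontrivial.mp (by rw [hD]; norm_num)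
    have k3 := IsSolvable.commutator_lt_top_of_nontrivial P
    rw [← map_subtype_commutator P] at k2
    refine k3.ne (Subgroup.map_injective P.subtype_injective ?_)
    rw [← MonoidHom.range_eq_map, range_subtype]
    exact (map_subtype_le _).antisymm k2
  · refine fun L hL => Transfer.hasNormalPComplement_of_frobenius fun Q hQ y hy ho x hx =>
      Subtype.ext ?_
    have h5 : orderOf (y : G) ∣ 5 := by
      have := orderOf_dvd_natCard (y : G)
      rw [hG, orderOf_coe] at this
      rw [orderOf_coe]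
      exact (ho.pow_right 6).dvd_of_dvd_mul_left this
    rcases (Nat.dvd_prime Nat.prime_five).mp h5 with h | h
    · simp [orderOf_eq_one_iff.mp h]
    have hQP : Q.map L.subtype ≤ P := (⟨le_top, hP2, by
      have := P.card_mul_index
      rw [hD, hG] at this
      rw [relIndex_top_right]
      omega⟩ : IsSyl 2 P ⊤).le_of_le_normalizer' (hQ.map _) le_top le_normalizer_of_normal
    refine (key y h _ hQP (fun e => hL (eq_top_iff.mpr ((top y h).ge.trans (sup_le
      (e.ge.trans (map_subtype_le _)) (zpowers_le.mpr y.2))))) (mem_normalizer_of_conj_mem ?_)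
      (mem_map_of_mem _ hx) y (mem_zpowers _)).symm
    rintro _ ⟨u, hu, rfl⟩
    exact ⟨_, conj_mem_of_mem_normalizer hy hu, rfl⟩

variable {F : Type*} [Field F]

/-- the matrix of an element -/
def mt (g : SU 3 F 4) : Matrix (Fin 3) (Fin 3) F := g.1.1

theorem mt_mul (g h : SU 3 F 4) : mt (g * h) = mt g * mt h := rfl
theorem mt_one : mt (1 : SU 3 F 4) = 1 := rfl
theorem mt_inj {g h : SU 3 F 4} (e : mt g = mt h) : g = h := Subtype.ext (Subtype.ext e)

theorem mt_col (g : SU 3 F 4) (i j : Fin 3) :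
    mt g 0 i * mt g 0 j ^ 4 + mt g 1 i * mt g 1 j ^ 4 + mt g 2 i * mt g 2 j ^ 4 =
      if i = j then 1 else 0 := by
  have := g.2 (Pi.single i 1) (Pi.single j 1)
  simp only [hermForm, Fin.sum_univ_three, mulVec_single_one] at this
  refine this.trans ?_
  fin_cases i <;> fin_cases j <;> simp

/-- the matrices commuting with the transposition -/
def N (a e s : F) : Matrix (Fin 3) (Fin 3) F :=
  !![a, a + s, e; a + s, a, e; s ^ 4 * e ^ 4, s ^ 4 * e ^ 4, s ^ 3]

variable [CharP F 2]

theorem N_mul (a e s a' e' s' : F) (hs : s ^ 5 = 1) (hs' : s' ^ 5 = 1) : N a e s * N a' e' s' =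
    N (a * a' + (a + s) * (a' + s') + e * s' ^ 4 * e' ^ 4) (s * e' + e * s' ^ 3) (s * s') := by
  ext i j
  fin_cases i <;> fin_cases j <;> simp [N, Matrix.mul_apply, Fin.sum_univ_three] <;> grind

theorem N_one : N (1 : F) 0 1 = 1 := by
  ext i j
  fin_cases i <;> fin_cases j <;> simp [N] <;> grind

/-- as elements of `SU` -/
def su (h16 : ∀ x : F, x ^ 16 = x) (a e s : F) (hs : s ^ 5 = 1)
    (ha : a * s ^ 4 + a ^ 4 * s = e ^ 5) : SU 3 F 4 :=
  ⟨⟨N a e s, by simp [N, det_fin_three]; grind⟩, fun u v => by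
    change hermForm 3 F 4 (N a e s *ᵥ u) (N a e s *ᵥ v) = _
    have := h16 e
    simp [hermForm, Fin.sum_univ_three, N, mulVec, dotProduct]
    grind⟩

/-- the other transposition -/
def sw : SU 3 F 4 :=
  ⟨⟨!![0, 0, 1; 0, 1, 0; 1, 0, 0], by simp [det_fin_three]; grind⟩, fun u v => by
    change hermForm 3 F 4 (!![0, 0, 1; 0, 1, 0; 1, 0, 0] *ᵥ u)
      (!![0, 0, 1; 0, 1, 0; 1, 0, 0] *ᵥ v) = _
    simp [hermForm, Fin.sum_univ_three, mulVec, dotProduct]
    ring⟩

variable (h16 : ∀ x : F, x ^ 16 = x)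

/-- the involution -/
def tt : SU 3 F 4 := su h16 0 0 1 (by simp) (by simp)

theorem exists_N {g : SU 3 F 4} (hg : g * tt h16 = tt h16 * g) :
    ∃ a e s, s ^ 5 = 1 ∧ a * s ^ 4 + a ^ 4 * s = e ^ 5 ∧ mt g = N a e s := by
  have h := congrArg mt hg
  rw [mt_mul, mt_mul] at h
  have e00 := congrFun (congrFun h 0) 0
  have e01 := congrFun (congrFun h 0) 1
  have e02 := congrFun (congrFun h 0) 2
  have e20 := congrFun (congrFun h 2) 0
  simp [mt, tt, su, N, Matrix.mul_apply, Fin.sum_univ_three] at e00 e01 e02 e20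
  have hd := g.1.2
  rw [det_fin_three] at hd
  have c00 := mt_col g 0 0
  have c01 := mt_col g 0 1
  have c02 := mt_col g 0 2
  have c22 := mt_col g 2 2
  simp only [mt, Fin.isValue, ↓reduceIte, zero_ne_one, Fin.reduceEq] at c00 c01 c02 c22
  have k := h16 (g.1.1 0 2)
  have s5 : (g.1.1 0 0 + g.1.1 0 1) ^ 5 = 1 := by grind
  have d : g.1.1 2 2 = (g.1.1 0 0 + g.1.1 0 1) ^ 3 := by grind
  have m : g.1.1 2 0 = (g.1.1 0 0 + g.1.1 0 1) ^ 4 * g.1.1 0 2 ^ 4 := by grind
  refine ⟨g.1.1 0 0, g.1.1 0 2, g.1.1 0 0 + g.1.1 0 1, s5, by grind, ?_⟩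
  ext i j
  fin_cases i <;> fin_cases j <;> simp [N, mt] <;> grind

theorem tt_mul : tt h16 * tt h16 = 1 := mt_inj (by
  change N 0 0 1 * N 0 0 1 = 1
  rw [N_mul _ _ _ _ _ _ (by simp) (by simp), ← N_one]; simp)

theorem tt_ne : tt h16 ≠ 1 := fun e => by
  simpa [mt, tt, su, N] using congrFun (congrFun (congrArg mt e) 0) 0

include h16 in
theorem center_eq {z : F} (hz : IsPrimitiveRoot z 5) : center (SU 3 F 4) = ⊥ := by
  refine eq_bot_iff.mpr fun g hg => mt_inj ?_
  have hc := mem_center_iff.mp hg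
  obtain ⟨a, e, s, hs, ha, h⟩ := exists_N h16 (hc _).symm
  have z5 := hz.pow_eq_one
  have z1 := hz.ne_one (by norm_num)
  have h1 := congrArg mt (hc sw)
  have h2 := congrArg mt (hc (su h16 z 0 z z5 (by grind)))
  rw [mt_mul, mt_mul, h] at h1 h2
  have e1 := congrFun (congrFun h1 0) 1
  have e2 := congrFun (congrFun h1 1) 0
  have e3 := congrFun (congrFun h1 0) 2
  have e4 := congrFun (congrFun h2 0) 2
  simp [mt, sw, su, N, Matrix.mul_apply, Fin.sum_univ_three] at e1 e2 e3 e4
  obtain rfl : e = 0 := by grind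
  obtain rfl : s = 1 := by grind
  obtain rfl : a = 1 := by grind
  rw [h, N_one, mt_one]

/-- the centralizer -/
abbrev C : Subgroup (SU 3 F 4) := centralizer {tt h16}

/-- elements of the centralizer -/
def el (a e s : F) (hs : s ^ 5 = 1) (ha : a * s ^ 4 + a ^ 4 * s = e ^ 5) : C h16 :=
  ⟨su h16 a e s hs ha, mem_centralizer_singleton_iff.mpr (mt_inj (by
    change N a e s * N 0 0 1 = N 0 0 1 * N a e s
    rw [N_mul _ _ _ _ _ _ hs (by simp), N_mul _ _ _ _ _ _ (by simp) hs]; simp))⟩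

theorem exists_el (x : C h16) : ∃ a e s hs ha, x = el h16 a e s hs ha :=
  let ⟨a, e, s, hs, ha, h⟩ := exists_N h16 (mem_centralizer_singleton_iff.mp x.2)
  ⟨a, e, s, hs, ha, Subtype.ext (mt_inj h)⟩

theorem el_mul {a e s a' e' s' : F} {hs ha hs' ha'} :
    el h16 a e s hs ha * el h16 a' e' s' hs' ha' =
      el h16 (a * a' + (a + s) * (a' + s') + e * s' ^ 4 * e' ^ 4) (s * e' + e * s' ^ 3) (s * s')
        (by grind) (by have := h16 e'; grind) :=
  Subtype.ext (mt_inj (N_mul _ _ _ _ _ _ hs hs'))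

theorem el_one : (1 : C h16) = el h16 1 0 1 (by simp) (by grind) :=
  Subtype.ext (mt_inj N_one.symm)

theorem el_inj {a e s a' e' s' : F} {hs ha hs' ha'} :
    el h16 a e s hs ha = el h16 a' e' s' hs' ha' ↔ a = a' ∧ e = e' ∧ s = s' := by
  refine ⟨fun h => ?_, by rintro ⟨rfl, rfl, rfl⟩; rfl⟩
  have k : N a e s = N a' e' s' := congrArg (fun x : C h16 => mt x.1) h
  have e1 := congrFun (congrFun k 0) 0
  have e2 := congrFun (congrFun k 0) 1
  have e3 := congrFun (congrFun k 0) 2
  simp [N] at e1 e2 e3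
  grind

theorem el_inv {a e s : F} {hs ha} : (el h16 a e s hs ha)⁻¹ =
    el h16 (a ^ 4) (s * e) (s ^ 4) (by grind) (by have := h16 a; grind) := by
  have := h16 e
  rw [inv_eq_iff_mul_eq_one, el_mul, el_one, el_inj]
  grind

/-- the character -/
def chi : C h16 →* F where
  toFun x := mt x.1 0 0 + mt x.1 0 1
  map_one' := by simp [mt]
  map_mul' x y := by
    obtain ⟨a, e, s, hs, ha, rfl⟩ := exists_el h16 x
    obtain ⟨a', e', s', hs', ha', rfl⟩ := exists_el h16 y
    rw [el_mul]
    simp [mt, el, su, N]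
    grind

theorem chi_el {a e s : F} {hs ha} : chi h16 (el h16 a e s hs ha) = s := by
  simp [chi, mt, el, su, N]
  grind

theorem exists_el' {x : C h16} (hx : x ∈ (chi h16).ker) :
    ∃ a e ha, x = el h16 a e 1 (by simp) ha := by
  obtain ⟨a, e, s, hs, ha, rfl⟩ := exists_el h16 x
  obtain rfl : s = 1 := (chi_el h16).symm.trans hx
  exact ⟨a, e, ha, rfl⟩

theorem minNN [Finite F] (hF : Nat.card F = 16) :
    MinNN 2 (C h16) ∧ Nat.card (C h16) = 2 ^ 6 * 5 ^ 1 := by
  obtain ⟨K, _, _, ζ, hK⟩ := exists_fld 2 5 Nat.prime_five (by norm_num)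
  have ho : orderOf ((2 : ℕ) : ZMod 5) = 2 * 2 :=
    orderOf_eq_prime_pow (p := 2) (n := 1) (by decide) (by decide)
  have := hK.finite
  have := hK.charP
  have := Fintype.ofFinite F
  have := Fintype.ofFinite K
  let φ : F ≃+* K := FiniteField.ringEquivOfCardEq (by
    rw [← Nat.card_eq_fintype_card, ← Nat.card_eq_fintype_card, hF, hK.card, ho]; rfl)
  have hz : IsPrimitiveRoot (φ.symm ζ) 5 := hK.prim.map_of_injective φ.symm.injective
  obtain ⟨z, hz'⟩ : ∃ z, z = φ.symm ζ := ⟨_, rfl⟩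
  rw [← hz'] at hz
  have z5 := hz.pow_eq_one
  have z1 := hz.ne_one (by norm_num)
  obtain ⟨ω, hω⟩ : ∃ ω : F, ω ^ 4 + ω = 1 := ⟨z / (z + z ^ 4), by grind⟩
  let g := el h16 (z ^ 2) 0 (z ^ 2) (by grind) (by grind)
  have hg : ∀ n, g ^ n = el h16 (z ^ (2 * n)) 0 (z ^ (2 * n))
      (by rw [← pow_mul, mul_comm, pow_mul, z5, one_pow]) (by grind) := fun n => by
    induction n with
    | zero => rw [pow_zero, el_one, el_inj]; simp
    | succ n ih => rw [pow_succ, ih, el_mul, el_inj]; grind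
  have hπ : ∀ a e s hs ha, mt (el h16 a e s hs ha).1 0 2 = e := fun _ _ _ _ _ => rfl
  have := Fact.mk Nat.prime_five
  have s : Sch 2 5 1 ζ (chi h16).ker g fun x => φ (mt x.1 0 2) := by
    refine ⟨fun x => ⟨2, Subtype.ext ?_⟩, orderOf_eq_prime ?_ fun e => ?_,
      le_normalizer_of_normal (mem_top g), fun x hx y hy => ?_, fun c => ?_, fun x hx => ?_,
      fun x hx e y hy => ?_, fun x hx e => ?_⟩
    · obtain ⟨a, e, ha, h⟩ := exists_el' h16 x.2
      rw [coe_pow, h, show 2 ^ 2 = 2 * 2 from rfl, pow_mul, sq, sq, el_mul, el_mul, coe_one, el_one,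
        el_inj]
      grind
    · rw [hg, el_one, el_inj]; grind
    · rw [el_one, el_inj] at e; grind
    · obtain ⟨a, e, ha, rfl⟩ := exists_el' h16 hx
      obtain ⟨a', e', ha', rfl⟩ := exists_el' h16 hy
      rw [el_mul, hπ, hπ, hπ, ← map_add]
      congr 1; ring
    · have := h16 (φ.symm c)
      exact ⟨el h16 (φ.symm c ^ 5 * ω) (φ.symm c) 1 (by simp) (by grind), chi_el h16, by
        rw [hπ, φ.apply_symm_apply]⟩
    · obtain ⟨a, e, ha, rfl⟩ := exists_el' h16 hx
      rw [el_inv, el_mul, el_mul, hπ, hπ, ← φ.apply_symm_apply ζ, ← hz', ← map_mul]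
      congr 1; grind
    · obtain ⟨a, e', ha, rfl⟩ := exists_el' h16 hx
      obtain ⟨a', e'', ha', rfl⟩ := exists_el' h16 hy
      obtain rfl : e' = 0 := by simpa [hπ] using e
      rw [el_mul, el_mul, el_inj]; grind
    · obtain ⟨a, e', ha, rfl⟩ := exists_el' h16 hx
      obtain rfl : e' = 0 := by simpa [hπ] using e
      rw [Commute, SemiconjBy, el_mul, el_mul, el_inj]; grind
  have s' := s.restrict hK
  have hle : ⁅(chi h16).ker, zpowers g⁆ ≤ (chi h16).ker :=
    commutator_le_of_le_normalizer_left s.zpowers_le_norm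
  have hk : s.ker ≤ s'.ker := fun x hx => by
    obtain ⟨a, e, ha, rfl⟩ := exists_el' h16 hx.1
    obtain rfl : e = 0 := by simpa [hπ] using hx.2
    obtain ⟨u, hu, e1⟩ := s'.surj 1
    obtain ⟨v, hv, e2⟩ := s'.surj (φ ((a + 1) * ω))
    convert s'.comm_mem hu hv
    obtain ⟨b, e, hb, rfl⟩ := exists_el' h16 (hle hu)
    obtain ⟨b', e', hb', rfl⟩ := exists_el' h16 (hle hv)
    obtain rfl : e = 1 := by simpa [hπ] using e1
    obtain rfl : e' = (a + 1) * ω := φ.injective e2
    rw [commutatorElement_def, el_inv, el_inv, el_mul, el_mul, el_mul, el_inj]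
    grind
  have hc : ⁅(chi h16).ker, zpowers g⁆ = (chi h16).ker := eq_of_le_of_card_ge hle (by
    rw [s.card_eq, s'.card_eq]; exact Nat.mul_le_mul_left _ (card_le_of_le hk))
  have ht : (chi h16).ker ⊔ zpowers g = ⊤ := eq_top_iff.mpr fun x _ => by
    obtain ⟨a, e, s, hs, ha, rfl⟩ := exists_el h16 x
    obtain ⟨i, -, rfl⟩ := hz.eq_pow_of_pow_eq_one hs
    rw [← mul_inv_cancel_right (el h16 a e _ hs ha) (g ^ (3 * i))⁻¹]
    refine mul_mem (mem_sup_left ?_) (inv_mem (inv_mem (mem_sup_right (pow_mem (mem_zpowers g) _))))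
    rw [MonoidHom.mem_ker, map_mul, hg, el_inv, chi_el, chi_el]
    calc z ^ i * (z ^ (2 * (3 * i))) ^ 4 = (z ^ 5) ^ (5 * i) := by ring
      _ = 1 := by rw [z5, one_pow]
  have h1 := s.minimal hK le_rfl hc
  have h2 := s.card_sup hK
  have h3 := s.card_le hK hc ho.symm
  have h4 : 2 ^ 2 ≤ Nat.card s.ker := by
    let f : K →+ K := (iterateFrobenius K 2 2).toAddMonoidHom + AddMonoidHom.id K
    refine (hK.card_range_ge ho (c := 1) (f := f) fun x => by
      simp [f, iterateFrobenius_def]).trans (Nat.card_le_card_of_injective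
        (fun w => ⟨el h16 (φ.symm w.1) 0 1 (by simp) ?_, chi_el h16, map_zero φ⟩)
        fun v w e => Subtype.ext (φ.symm.injective ((el_inj h16).mp (congrArg Subtype.val e)).1))
    obtain ⟨_, w, rfl⟩ := w
    have := h16 (φ.symm w)
    simp only [f, RingHom.toAddMonoidHom_eq_coe, AddMonoidHom.add_apply, AddMonoidHom.coe_coe,
      iterateFrobenius_def, AddMonoidHom.id_apply, map_add, map_pow]
    grind
  rw [ht] at h1 h2
  rw [card_top] at h2
  refine ⟨minNN_of_equiv h1 topEquiv, ?_⟩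
  have h5 := s.card_eq
  rw [hK.card, ho] at h5
  norm_num at h3 h4 h5 h2 ⊢
  omega

omit [CharP F 2] h16 in
theorem exists_invol [Finite F] (hF : Nat.card F = 16) : ∃ t : PSU 3 F 4, orderOf t = 2 ∧
    MinNN 2 (centralizer ({t} : Set (PSU 3 F 4))) ∧
      Nat.card (centralizer ({t} : Set (PSU 3 F 4))) = 2 ^ 6 * 5 ^ 1 := by
  have := Fintype.ofFinite F
  rw [Nat.card_eq_fintype_card] at hF
  have : CharP F 2 := charP_of_card_eq_prime_pow (p := 2) (f := 4) hF
  have h16 : ∀ x : F, x ^ 16 = x := fun x => hF ▸ FiniteField.pow_card x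
  obtain ⟨z, hz⟩ : ∃ z : F, IsPrimitiveRoot z 5 := by
    have := Fact.mk Nat.prime_five
    obtain ⟨z, hz⟩ := exists_prime_orderOf_dvd_card' (G := Fˣ) 5 (by
      rw [Nat.card_units, Nat.card_eq_fintype_card, hF]; norm_num)
    exact ⟨z, IsPrimitiveRoot.coe_units_iff.mpr (hz ▸ IsPrimitiveRoot.orderOf z)⟩
  let e : SU 3 F 4 ≃* PSU 3 F 4 := MulEquiv.ofBijective (QuotientGroup.mk' _)
    ⟨(MonoidHom.ker_eq_bot_iff _).mp ((QuotientGroup.ker_mk' _).trans (center_eq h16 hz)),
      QuotientGroup.mk'_surjective _⟩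
  have h : (C h16).map (e : SU 3 F 4 →* PSU 3 F 4) = centralizer {e (tt h16)} := by
    ext x
    obtain ⟨x, rfl⟩ := e.surjective x
    refine (mem_map_iff_mem e.injective).trans ?_
    rw [mem_centralizer_singleton_iff,
      mem_centralizer_singleton_iff, ← map_mul, ← map_mul, e.apply_eq_iff_eq]
  obtain ⟨h1, h2⟩ := minNN h16 (Nat.card_eq_fintype_card.trans hF)
  let e' := (e.subgroupMap (C h16)).trans (MulEquiv.subgroupCongr h)
  exact ⟨e (tt h16), by rw [e.orderOf_eq, orderOf_eq_prime (by rw [sq, tt_mul]) (tt_ne h16)],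
    minNN_of_equiv h1 e', (Nat.card_congr e'.toEquiv).symm.trans h2⟩

end Cfsg.Agent.Lib.Two.U34
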